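/-
`E₈(2)`, `L₂(64)`: stabilisers in `SL₂(4)` of a vector of the adjoint module (coordinates).
-/
import Mathlib

set_option autoImplicit false

namespace CL.E82.FixA
variable {K : Type*} [Field K]

/-- `x_α(c)` on `v₀ + μ h + a e + a' e'` -/
def X (c l : K) (s : K × K × K) : K × K × K := (s.1 + c * s.2.2, s.2.1 + c * l + c ^ 2 * s.2.2, s.2.2)
/-- `x_{-α}(c)` -/
def Y (c l : K) (s : K × K × K) : K × K × K := (s.1 + c * s.2.1, s.2.1, s.2.2 + c * l + c ^ 2 * s.2.1)
/-- a product of four root elements -/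
def GG (c : Fin 4 → K) (l a a' : K) : K × K × K := X (c 0) l (Y (c 1) l (X (c 2) l (Y (c 3) l (0, a, a'))))
/-- the vector is fixed -/
def Fix (c : Fin 4 → K) (T : K × K × K) : Prop := GG c T.1 T.2.1 T.2.2 = (0, T.2.1, T.2.2)

theorem Fix.smul {c : Fin 4 → K} {T : K × K × K} (h : Fix c T) (k : K) : Fix c (k • T) := by
  simp only [Fix, GG, X, Y, Prod.mk.injEq, Prod.smul_fst, Prod.smul_snd, smul_eq_mul] at h ⊢
  exact ⟨by linear_combination k * h.1, by linear_combination k * h.2.1, by linear_combination k * h.2.2⟩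

theorem Fix.of_map {c : Fin 4 → K} {l a a' : K} (φ : K →+* K) (h : Fix (fun i => φ (c i)) (φ l, φ a, φ a')) :
    Fix c (l, a, a') := by
  simp only [Fix, GG, X, Y, Prod.mk.injEq] at h ⊢
  refine ⟨φ.injective ?_, φ.injective ?_, φ.injective ?_⟩ <;> simp only [map_add, map_mul, map_pow, map_zero]
  exacts [h.1, h.2.1, h.2.2]

variable (h2 : (2 : K) = 0) {ω : K} (hω : ω ^ 2 + ω + 1 = 0)
include h2 hω

theorem par0 {l a : K} (hl : l ^ 4 = l) (ha : a ^ 4 = a) : ∃ c d : K, c ^ 4 = c ∧ d ^ 4 = d ∧ c ≠ 0 ∧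
    c * (a + d * l + d ^ 2) = l := by
  have w3 : ω ^ 3 = 1 := by linear_combination (ω - 1) * hω
  by_cases l0 : l = 0
  · exact ⟨1, a ^ 2, by simp, by rw [← pow_mul, mul_comm, pow_mul, ha], one_ne_zero, by
      rw [l0]; linear_combination ha + a * h2⟩
  by_cases a0 : a = 0
  · refine ⟨l ^ 2, ω * l, by rw [← pow_mul, mul_comm, pow_mul, hl], by
      rw [mul_pow, hl]; linear_combination l * ω * w3, pow_ne_zero _ l0, ?_⟩
    rw [a0]; linear_combination l ^ 4 * hω + hl - l ^ 4 * h2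
  · exact ⟨l / a, 0, by rw [div_pow, hl, ha], by simp, div_ne_zero l0 a0, by field_simp; ring⟩

theorem par {S : Set (K × K × K)}
    (pr : ∀ T ∈ S, ∀ U ∈ S, U.2.1 * T.1 + T.2.1 * U.1 = 0 ∧ U.2.2 * T.1 + T.2.2 * U.1 = 0 ∧
      T.2.1 * U.2.2 + T.2.2 * U.2.1 = 0)
    (fr : ∀ T ∈ S, (T.1 ^ 4, T.2.1 ^ 4, T.2.2 ^ 4) ∈ S) : ∃ c : Fin 4 → K, (∀ i, c i ^ 4 = c i) ∧ (∀ T ∈ S, Fix c T) ∧
      ((GG c 0 1 0).2 ≠ (1, 0) ∨ (GG c 0 0 1).2 ≠ (0, 1)) := by
  have a4 : ∀ x y : K, x ^ 4 = x → y ^ 4 = y → (x + y) ^ 4 = x + y := fun x y hx hy => by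
    linear_combination hx + hy + (2 * x ^ 3 * y + 3 * x ^ 2 * y ^ 2 + 2 * x * y ^ 3) * h2
  have q : ∀ x y : K, y ≠ 0 → y ^ 4 * x + y * x ^ 4 = 0 → (x / y) ^ 4 = x / y := fun x y y0 h => by
    rw [div_pow, div_eq_div_iff (pow_ne_zero _ y0) y0]; linear_combination h - y ^ 4 * x * h2
  by_cases h1 : ∃ T ∈ S, T.2.2 ≠ 0
  · obtain ⟨⟨l, a, b⟩, hT, b0⟩ := h1
    obtain ⟨-, p2, p3⟩ := pr _ hT _ (fr _ hT)
    have hl := q l b b0 p2
    obtain ⟨c, d, hc, hd, c0, e⟩ := par0 h2 hω hl (q a b b0 (by linear_combination p3))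
    refine ⟨![d + l / b, c, d, 0], fun i => by fin_cases i <;> simp [a4, hl, hc, hd], fun U hU => ?_, .inl ?_⟩
    · obtain ⟨-, p2, p3⟩ := pr _ hT _ hU
      have : U = U.2.2 • (l / b, a / b, 1) := Prod.ext (by
        simp only [Prod.smul_fst, smul_eq_mul]; field_simp; linear_combination p2 - U.2.2 * l * h2) (Prod.ext (by
        simp only [Prod.smul_fst, Prod.smul_snd, smul_eq_mul]; field_simp; linear_combination p3 - U.2.2 * a * h2)
        (by simp))
      rw [this]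
      refine Fix.smul ?_ _
      generalize l / b = l at *
      generalize a / b = a at *
      simp [Fix, GG, X, Y]
      refine ⟨?_, ?_, ?_⟩
      · linear_combination (1 + (d + l) * c) * e + (d + l + (d + l) * c * l) * h2
      · linear_combination (d + l) ^ 2 * c * e + (d * l + d ^ 2 + l ^ 2 + d * l + (d + l) ^ 2 * c * l) * h2
      · linear_combination c * e + c * l * h2
    · simp [GG, X, Y, c0]
  push Not at h1
  by_cases h0 : ∃ T ∈ S, T.2.1 ≠ 0
  · obtain ⟨⟨l, b, a⟩, hT, b0⟩ := h0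
    obtain ⟨p2, -⟩ := pr _ hT _ (fr _ hT)
    have hl := q l b b0 p2
    obtain ⟨c, d, hc, hd, c0, e⟩ := par0 h2 hω (a := 0) hl (by simp)
    refine ⟨![0, d + l / b, c, d], fun i => by fin_cases i <;> simp [a4, hl, hc, hd], fun U hU => ?_, .inr ?_⟩
    · obtain ⟨p2, -⟩ := pr _ hT _ hU
      have : U = U.2.1 • (l / b, 1, 0) := Prod.ext (by
        simp only [Prod.smul_fst, smul_eq_mul]; field_simp; linear_combination p2 - U.2.1 * l * h2) (Prod.ext (by simp)
        (by simp [h1 U hU]))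
      rw [this]
      refine Fix.smul ?_ _
      generalize l / b = l at *
      simp [Fix, GG, X, Y]
      refine ⟨?_, ?_, ?_⟩
      · linear_combination (1 + (d + l) * c) * e + (d + l + (d + l) * c * l) * h2
      · linear_combination c * e + c * l * h2
      · linear_combination (d + l) ^ 2 * c * e + (d * l + d ^ 2 + l ^ 2 + d * l + (d + l) ^ 2 * c * l) * h2
    · simp [GG, X, Y, c0]
  push Not at h0
  have w : ω ^ 4 = ω := by linear_combination ω * (ω - 1) * hω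
  refine ⟨![1, ω, ω, 1], fun i => by fin_cases i <;> simp [w], fun U hU => ?_, .inl fun e => ?_⟩
  · have : U = U.1 • (1, 0, 0) := Prod.ext (by simp) (Prod.ext (by simp [h0 U hU]) (by simp [h1 U hU]))
    rw [this]
    refine Fix.smul ?_ _
    simp [Fix, GG, X, Y]
    exact ⟨by linear_combination (ω ^ 2 - ω + 1) * hω + (ω + ω ^ 3) * h2,
      by linear_combination ω ^ 2 * hω + (1 + ω) * h2, by linear_combination (1 + ω) * (ω - 1) * hω + (1 + ω) * h2⟩
  · simp [GG, X, Y] at e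
    have : ω = 0 := pow_eq_zero_iff two_ne_zero |>.1 (by linear_combination e.1 - e.2)
    simp [this] at hω

end CL.E82.FixA
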